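import Cfsg.Agent.Chars.IsaacsPassman.Monolith
import Cfsg.Agent.Chars.DegreeLtPrime.Main
import Cfsg.Agent.Chars.TwoDegrees.Prime
import Cfsg.Agent.Chars.Apps.Burnside
import Cfsg.Agent.Cores.GenFitting

/-!
# An abelian subgroup of index at most `(b!) ^ 2`
-/

set_option autoImplicit false

namespace CfsgLib.IsaacsPassman

open Cfsg CfsgLib.Chars CfsgLib.Chars.Induced
open scoped ComplexConjugate commutatorElement

universe u

variable {b : ℕ}

/-- The goal. -/
def HasAbelianOfIndexLE (G : Type u) [Group G] (n : ℕ) : Prop :=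
  ∃ A : Subgroup G, (∀ x ∈ A, ∀ y ∈ A, x * y = y * x) ∧ A.index ≤ n

theorem HasAbelianOfIndexLE.of_subgroup {G : Type u} [Group G] {H : Subgroup G} {n i m : ℕ}
    (h : HasAbelianOfIndexLE H n) (hi : H.index ≤ i) (hm : i * n ≤ m) : HasAbelianOfIndexLE G m := by
  obtain ⟨A, hA, hAn⟩ := h
  refine ⟨A.map H.subtype, ?_, ?_⟩
  · rintro _ ⟨x, hx, rfl⟩ _ ⟨y, hy, rfl⟩
    rw [← map_mul, ← map_mul, hA x hx y hy]
  · rw [Subgroup.index_map_subtype]
    exact ((Nat.mul_le_mul hAn hi).trans_eq (mul_comm n i)).trans hm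

/-- All degrees at most `4` force solvability. -/
theorem isSolvable_of_degrees_le_four (n : ℕ) : ∀ (G : Type u) [Group G] [Finite G], Nat.card G = n →
    DegreesLE G 4 → Group.IsSolvable G := by
  induction n using Nat.strong_induction_on with
  | _ n ih =>
  intro G _ _ hn hb
  classical
  have := Fintype.ofFinite G
  by_cases h : ∃ r : ℕ, r.Prime ∧ r ∣ Nat.card G ∧ r ≠ 2 ∧ r ≠ 3
  · obtain ⟨r, hr, hrd, hr2, hr3⟩ := h
    haveI : Fact r.Prime := ⟨hr⟩
    have hr5 : 4 < r := by
      rcases Nat.lt_or_ge 4 r with h | h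
      · exact h
      · have := hr.two_le
        interval_cases r <;> norm_num at *
    obtain ⟨P, hP⟩ := CfsgLib.DegreeLtPrime.normal_sylow (p := r) _ G rfl
      (fun χ => lt_of_le_of_lt (hb χ) hr5)
    haveI := hP
    haveI : Group.IsNilpotent (P : Subgroup G) := P.2.isNilpotent
    haveI : Group.IsSolvable (P : Subgroup G) := inferInstance
    haveI : Group.IsSolvable (G ⧸ (P : Subgroup G)) := by
      refine ih _ (hn ▸ ?_) _ rfl (DegreesLE.quotient hb _)
      rw [← (P : Subgroup G).index_mul_card, ← Subgroup.index_eq_card]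
      refine lt_mul_of_one_lt_right (Nat.pos_of_ne_zero Subgroup.index_ne_zero_of_finite) ?_
      exact lt_of_lt_of_le hr.one_lt (Nat.le_of_dvd Nat.card_pos (P.dvd_card_of_dvd_card hrd))
    exact Group.isSolvable_of_ker_le_range (P : Subgroup G).subtype (QuotientGroup.mk' (P : Subgroup G))
      (by rw [QuotientGroup.ker_mk', Subgroup.range_subtype])
  · push Not at h
    exact CfsgLib.Chars.Apps.isSolvable_of_primeFactors_subset G Nat.prime_two Nat.prime_three
      fun r hr hd => (em (r = 2)).imp_right (h r hr hd)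

theorem factorial_step {c : ℕ} (hc : c + 1 = b) (i : ℕ) (hi : i ≤ b ^ 2) :
    i * (Nat.factorial c) ^ 2 ≤ (Nat.factorial b) ^ 2 := by
  subst hc
  rw [Nat.factorial_succ, mul_pow]
  exact Nat.mul_le_mul_right _ hi

theorem factorial_half (hb : 3 ≤ b) (i : ℕ) (hi : i ≤ b ^ 3) :
    i * (Nat.factorial (b / 2)) ^ 2 ≤ (Nat.factorial b) ^ 2 := by
  obtain ⟨c, rfl⟩ : ∃ c, b = c + 2 := ⟨b - 2, by omega⟩
  have h1 : Nat.factorial ((c + 2) / 2) ≤ Nat.factorial c := Nat.factorial_le (by omega)
  rw [show Nat.factorial (c + 2) = (c + 2) * (c + 1) * Nat.factorial c by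
    rw [Nat.factorial_succ, Nat.factorial_succ]; ring, mul_pow]
  refine Nat.mul_le_mul (hi.trans ?_) (Nat.pow_le_pow_left h1 2)
  calc (c + 2) ^ 3 = (c + 2) ^ 2 * (c + 2) := by ring
    _ ≤ (c + 2) ^ 2 * (c + 1) ^ 2 := Nat.mul_le_mul_left _ (by nlinarith)
    _ = _ := by ring

theorem factorial_half' (hb : 5 ≤ b) (i : ℕ) (hi : i ≤ b ^ 2 * (b ^ 2 + 1)) :
    i * (Nat.factorial (b / 2)) ^ 2 ≤ (Nat.factorial b) ^ 2 := by
  obtain ⟨c, rfl⟩ : ∃ c, b = c + 3 := ⟨b - 3, by omega⟩
  have h1 : Nat.factorial ((c + 3) / 2) ≤ Nat.factorial c := Nat.factorial_le (by omega)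
  rw [show Nat.factorial (c + 3) = (c + 3) * ((c + 2) * (c + 1)) * Nat.factorial c by
    rw [Nat.factorial_succ, Nat.factorial_succ, Nat.factorial_succ]; ring, mul_pow]
  refine Nat.mul_le_mul (hi.trans ?_) (Nat.pow_le_pow_left h1 2)
  rw [mul_pow]
  refine Nat.mul_le_mul_left _ ?_
  have hc : 2 ≤ c := by omega
  nlinarith [Nat.mul_le_mul (Nat.mul_le_mul hc hc) (Nat.mul_le_mul hc hc), Nat.mul_le_mul hc hc]

theorem solvable_step {G : Type u} [Group G] [Fintype G] (hb : DegreesLE G b) (hb3 : 3 ≤ b)
    (ih : ∀ c < b, ∀ (K : Type u) [Group K] [Finite K], DegreesLE K c →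
      HasAbelianOfIndexLE K ((Nat.factorial c) ^ 2))
    (hnp : ¬ commutator G ≤ ⁅commutator G, commutator G⁆) :
    HasAbelianOfIndexLE G ((Nat.factorial b) ^ 2) := by
  classical
  obtain ⟨N, ⟨hNn, hN2, hN1⟩, hmax⟩ := (Set.toFinite {N : Subgroup G | N.Normal ∧
      ⁅commutator G, commutator G⁆ ≤ N ∧ ¬ commutator G ≤ N}).exists_maximal
    ⟨⁅commutator G, commutator G⁆, inferInstance, le_rfl, hnp⟩
  haveI := hNn
  set Q := G ⧸ N
  have := Fintype.ofFinite Q
  set q := QuotientGroup.mk' N with hq
  have hqs : Function.Surjective q := QuotientGroup.mk'_surjective N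
  have hQ' : commutator Q = (commutator G).map q := by
    rw [commutator_def, commutator_def, Subgroup.map_commutator, Subgroup.map_top_of_surjective q hqs]
  have hne : commutator Q ≠ ⊥ := by
    rw [hQ', Ne, Subgroup.map_eq_bot_iff, hq, QuotientGroup.ker_mk']; exact hN1
  have hab : ∀ x ∈ commutator Q, ∀ y ∈ commutator Q, x * y = y * x := by
    rw [hQ']
    rintro _ ⟨x, hx, rfl⟩ _ ⟨y, hy, rfl⟩
    rw [← commutatorElement_eq_one_iff_mul_comm, ← map_commutatorElement, hq, QuotientGroup.mk'_apply,
      QuotientGroup.eq_one_iff]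
    exact hN2 (Subgroup.commutator_mem_commutator hx hy)
  have hmono : ∀ M : Subgroup Q, M.Normal → M ≠ ⊥ → commutator Q ≤ M := by
    intro M hM hMne
    have hle : N ≤ M.comap q := by
      intro n hn
      show q n ∈ M
      rw [show q n = 1 from (QuotientGroup.eq_one_iff n).2 hn]; exact one_mem _
    rw [hQ', Subgroup.map_le_iff_le_comap]
    by_contra hG
    have hle' := hmax ⟨hM.comap q, hN2.trans hle, hG⟩ hle
    apply hMne
    rw [← Subgroup.map_comap_eq_self_of_surjective hqs M, Subgroup.map_eq_bot_iff, hq, QuotientGroup.ker_mk']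
    exact hle'
  rcases monolith (DegreesLE.quotient hb N) hne hab hmono with ⟨β, hβv, hβi, hβ2⟩ | ⟨hZ, A, hAn, hAab, hAi⟩
  · set Z1 := (Subgroup.center Q).comap q with hZ1
    have := Fintype.ofFinite Z1
    have hidx : Z1.index ≤ b ^ 2 := by
      rw [hZ1, Subgroup.index_comap_of_surjective _ hqs, hβi]
      exact Nat.pow_le_pow_left (DegreesLE.quotient hb N β) 2
    obtain ⟨c, rfl⟩ : ∃ c, b = c + 1 := ⟨b - 1, by omega⟩
    refine (ih c (by omega) Z1 fun θ => ?_).of_subgroup hidx (factorial_step rfl _ le_rfl)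
    by_contra hθ
    obtain ⟨χ, hχ⟩ := exists_over Z1 θ
    have hθd : c + 1 ≤ charDegree (θ : Z1 → ℂ) := by omega
    have hres := restrict_eq_of_degree_le χ θ hχ ((hb χ).trans hθd)
    have hchar : IsCharacter G fun g => (χ : G → ℂ) g * (β : Q → ℂ) (g : Q) :=
      isCharacter_mul_quotient (isCharacter_coe χ) β
    have hinner : classInner (fun g => (χ : G → ℂ) g * (β : Q → ℂ) (g : Q))
        (fun g => (χ : G → ℂ) g * (β : Q → ℂ) (g : Q)) = 1 := by
      have hterm : ∀ g : G, (χ : G → ℂ) g * (β : Q → ℂ) (g : Q) * conj ((χ : G → ℂ) g * (β : Q → ℂ) (g : Q)) =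
          if g ∈ Z1 then ((charDegree (β : Q → ℂ) ^ 2 : ℕ) : ℂ) * ((χ : G → ℂ) g * conj ((χ : G → ℂ) g)) else 0 := by
        intro g
        split_ifs with hg
        · have h1 : (β : Q → ℂ) (g : Q) * conj ((β : Q → ℂ) (g : Q)) = ((charDegree (β : Q → ℂ) ^ 2 : ℕ) : ℂ) := by
            rw [Complex.mul_conj, Complex.normSq_eq_norm_sq, norm_map_of_mem_center β (show (g : Q) ∈ Subgroup.center Q from hg), ← coe_charDegree,
              Complex.norm_natCast]
            push_cast; ring
          rw [map_mul, ← h1]; ring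
        · rw [hβv (g : Q) hg]; simp
      simp only [classInner, hterm, ← Finset.sum_filter]
      rw [Finset.sum_subtype (p := fun g => g ∈ Z1) _ (by simp)
        (fun g => ((charDegree (β : Q → ℂ) ^ 2 : ℕ) : ℂ) * ((χ : G → ℂ) g * conj ((χ : G → ℂ) g))),
        ← Finset.mul_sum]
      have hθθ : ∑ z : Z1, (χ : G → ℂ) z * conj ((χ : G → ℂ) z) = (Nat.card Z1 : ℂ) := by
        simp only [hres]
        have h := CfsgLib.Chars.classInner_self θ
        rw [classInner, inv_mul_eq_iff_eq_mul₀ CfsgLib.Chars.natCard_ne_zero, mul_one] at h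
        exact h
      rw [hθθ, ← hβi, ← Subgroup.index_comap_of_surjective _ hqs, ← hZ1, ← Nat.cast_mul, mul_comm Z1.index,
        Subgroup.card_mul_index, inv_mul_cancel₀ CfsgLib.Chars.natCard_ne_zero]
    have hd := hb ⟨_, isIrrCharacter_of_classInner_self hchar hinner⟩
    rw [charDegree_eq_of_map_one (n := charDegree (χ : G → ℂ) * charDegree (β : Q → ℂ)) (by
      show (χ : G → ℂ) 1 * (β : Q → ℂ) ((1 : G) : Q) = _
      push_cast
      rw [coe_charDegree, coe_charDegree, QuotientGroup.mk_one])] at hd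
    have h1 := (Nat.mul_le_mul_left _ hβ2).trans hd
    have h2 := degree_le_of_mult χ θ hχ
    omega
  · set H := A.comap q with hH
    haveI : H.Normal := hAn.comap q
    have := Fintype.ofFinite H
    have hidx : H.index ≤ b := by rw [hH, Subgroup.index_comap_of_surjective _ hqs]; exact hAi
    by_cases hsmall : ∀ θ : IrrCharacter H, charDegree (θ : H → ℂ) < b
    · obtain ⟨c, rfl⟩ : ∃ c, b = c + 1 := ⟨b - 1, by omega⟩
      exact (ih c (by omega) H fun θ => Nat.le_of_lt_succ (hsmall θ)).of_subgroup hidx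
        (factorial_step rfl _ (Nat.le_self_pow two_ne_zero _))
    push Not at hsmall
    obtain ⟨ψ, hψ⟩ := hsmall
    -- `ψ` times a linear character of `H / N` is invariant
    have hinv : ∀ η : IrrCharacter H, b ≤ charDegree (η : H → ℂ) → ∀ g : G, g ∈ inertia H (η : H → ℂ) := by
      intro η hη g
      obtain ⟨χ, hχ⟩ := exists_over H η
      have hcl : charDegree (χ : G → ℂ) =
          mult (fun n : H => (χ : G → ℂ) n) η * (inertia H (η : H → ℂ)).index * charDegree (η : H → ℂ) := by
        apply Nat.cast_injective (R := ℂ)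
        push_cast
        rw [coe_charDegree, coe_charDegree]
        exact clifford_one χ η hχ
      have h1 : mult (fun n : H => (χ : G → ℂ) n) η * (inertia H (η : H → ℂ)).index * charDegree (η : H → ℂ) ≤
          1 * charDegree (η : H → ℂ) := by rw [← hcl, one_mul]; exact (hb χ).trans hη
      have h2 := Nat.le_of_mul_le_mul_right h1 (charDegree_pos η)
      have h3 : (inertia H (η : H → ℂ)).index = 1 := by
        have h4 := Nat.pos_of_ne_zero hχ
        have h5 := Nat.pos_of_ne_zero (Subgroup.index_ne_zero_of_finite (H := inertia H (η : H → ℂ)))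
        have := (Nat.le_mul_of_pos_left (inertia H (η : H → ℂ)).index h4).trans h2
        omega
      rw [Subgroup.index_eq_one.1 h3]; trivial
    haveI : IsMulCommutative A := ⟨⟨fun a c => Subtype.ext (hAab a a.2 c c.2)⟩⟩
    let qA : H →* A := (q.comp H.subtype).codRestrict A fun h => h.2
    have hvan : ∀ h : H, (h : G) ∉ N → (ψ : H → ℂ) h = 0 := by
      intro h hhN
      obtain ⟨g', hg'⟩ : ∃ g' : Q, g' * q h ≠ q h * g' := by
        by_contra! hh
        apply hhN
        have : q h ∈ Subgroup.center Q := Subgroup.mem_center_iff.2 hh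
        rw [hZ, Subgroup.mem_bot] at this
        exact (QuotientGroup.eq_one_iff _).1 this
      obtain ⟨g, rfl⟩ := hqs g'
      let h' : H := ⟨g * h * g⁻¹, ‹H.Normal›.conj_mem _ h.2 g⟩
      have hne' : qA h' * (qA h)⁻¹ ≠ 1 := by
        intro e
        rw [mul_inv_eq_one] at e
        have e' : q (g * h * g⁻¹) = q h := congrArg Subtype.val e
        rw [map_mul, map_mul, map_inv, mul_inv_eq_iff_eq_mul] at e'
        exact hg' e'
      obtain ⟨l, hl⟩ := exists_linChar_ne_one (g := qA h' * (qA h)⁻¹) (by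
        rw [commutator_eq_bot_iff.2 fun θ : IrrCharacter A => map_one_eq_one_of_isMulCommutative θ,
          Subgroup.mem_bot]
        exact hne')
      set μ := linChar (l.comp qA) with hμ
      have hμn : ∀ x : H, (μ : H → ℂ) x * conj ((μ : H → ℂ) x) = 1 := fun x => by
        rw [← map_inv_eq_conj (isCharacter_coe μ), hμ, linChar_apply, linChar_apply, ← Units.val_mul,
          ← map_mul, mul_inv_cancel, map_one, Units.val_one]
      have hirr : IsIrrCharacter H fun x => (ψ : H → ℂ) x * (μ : H → ℂ) x := by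
        refine isIrrCharacter_of_classInner_self (isCharacter_mul (isCharacter_coe ψ) (isCharacter_coe μ)) ?_
        rw [← CfsgLib.Chars.classInner_self ψ]
        simp only [classInner]
        congr 1
        refine Finset.sum_congr rfl fun x _ => ?_
        rw [map_mul, mul_mul_mul_comm, hμn, mul_one]
      have h1 := mem_inertia_iff_forall.1 (hinv ψ hψ g) h h' rfl
      have hd : b ≤ charDegree ((⟨_, hirr⟩ : IrrCharacter H) : H → ℂ) := by
        refine hψ.trans (le_of_eq ?_)
        symm
        refine charDegree_eq_of_map_one ?_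
        show (ψ : H → ℂ) 1 * (μ : H → ℂ) 1 = _
        rw [coe_charDegree, hμ, linChar_map_one, mul_one]
      have h2 : (ψ : H → ℂ) h' * (μ : H → ℂ) h' = (ψ : H → ℂ) h * (μ : H → ℂ) h :=
        mem_inertia_iff_forall.1 (hinv ⟨_, hirr⟩ hd g) h h' rfl
      rw [h1] at h2
      by_contra h0
      apply hl
      have h3 := mul_left_cancel₀ h0 h2
      rw [hμ, linChar_apply, linChar_apply] at h3
      have h4 : l (qA h') = l (qA h) := Units.ext h3
      rw [map_mul, map_inv, h4, mul_inv_cancel]
    have hNH : N ≤ H := fun n hn => by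
      show q n ∈ A
      rw [show q n = 1 from (QuotientGroup.eq_one_iff n).2 hn]; exact one_mem _
    have hcard : Nat.card H ≤ Nat.card N * b ^ 2 := by
      have h1 := CfsgLib.Chars.classInner_self ψ
      rw [classInner, inv_mul_eq_iff_eq_mul₀ CfsgLib.Chars.natCard_ne_zero, mul_one] at h1
      have h2 : ((∑ x : H, ‖(ψ : H → ℂ) x‖ ^ 2 : ℝ) : ℂ) = ((Nat.card H : ℝ) : ℂ) := by
        push_cast
        rw [← h1]
        exact Finset.sum_congr rfl fun x _ => by
          rw [Complex.mul_conj, Complex.normSq_eq_norm_sq]; push_cast; rfl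
      have h3 : (∑ x : H, ‖(ψ : H → ℂ) x‖ ^ 2 : ℝ) = Nat.card H := Complex.ofReal_injective h2
      rw [← Finset.sum_filter_of_ne (p := fun x : H => (x : G) ∈ N) fun x _ hx => by
        by_contra hx'; exact hx (by rw [hvan x hx']; simp)] at h3
      have h4 := Finset.sum_le_card_nsmul (Finset.univ.filter fun x : H => (x : G) ∈ N)
        (fun x => ‖(ψ : H → ℂ) x‖ ^ 2) ((b : ℝ) ^ 2) fun x _ => by
          refine pow_le_pow_left₀ (norm_nonneg _) ((CfsgLib.Chars.norm_apply_le (isCharacter_coe ψ) x).trans ?_) 2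
          rw [← coe_charDegree, Complex.norm_natCast]
          exact Nat.cast_le.2 (DegreesLE.subgroup hb H ψ)
      rw [h3, nsmul_eq_mul, ← Fintype.card_subtype, ← Nat.card_eq_fintype_card,
        show Nat.card {x : H // (x : G) ∈ N} = Nat.card (N.subgroupOf H) from rfl,
        Nat.card_congr (Subgroup.subgroupOfEquivOfLe hNH).toEquiv] at h4
      exact_mod_cast h4
    have hNidx : N.index ≤ b ^ 3 := by
      refine Nat.le_of_mul_le_mul_left ?_ (Nat.card_pos (α := N))
      calc Nat.card N * N.index = Nat.card H * H.index := by rw [Subgroup.card_mul_index, Subgroup.card_mul_index]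
        _ ≤ Nat.card N * b ^ 2 * b := Nat.mul_le_mul hcard hidx
        _ = _ := by ring
    exact (ih (b / 2) (by omega) N (degrees_half hb N hN1)).of_subgroup hNidx (factorial_half hb3 _ le_rfl)

theorem perfect_step {G : Type u} [Group G] [Fintype G] (hb : DegreesLE G b) (hb5 : 5 ≤ b)
    (ih : ∀ c < b, ∀ (K : Type u) [Group K] [Finite K], DegreesLE K c →
      HasAbelianOfIndexLE K ((Nat.factorial c) ^ 2))
    (hF : ¬ commutator G ≤ fittingSubgroup G) :
    HasAbelianOfIndexLE G ((Nat.factorial b) ^ 2) := by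
  classical
  set F := fittingSubgroup G with hFdef
  by_cases hx : ∃ x, x ∉ F ∧ (Subgroup.centralizer ({x} : Set G)).index ≤ b ^ 2
  · obtain ⟨x, hxF, hxi⟩ := hx
    obtain ⟨c, rfl⟩ : ∃ c, b = c + 1 := ⟨b - 1, by omega⟩
    refine (ih c (by omega) _ fun θ => ?_).of_subgroup hxi (factorial_step rfl _ le_rfl)
    by_contra hθ
    apply hxF
    have := Fintype.ofFinite (Subgroup.centralizer ({x} : Set G))
    have hθd : charDegree (θ : Subgroup.centralizer ({x} : Set G) → ℂ) = c + 1 :=
      le_antisymm (DegreesLE.subgroup hb _ θ) (by omega)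
    have hconj := conj_mem_centralizer hb x _ rfl θ hθd
    have hcomm : ∀ u ∈ Group.conjugatesOfSet ({x} : Set G), ∀ v ∈ Group.conjugatesOfSet ({x} : Set G),
        u * v = v * u := by
      intro u hu v hv
      rw [Group.mem_conjugatesOfSet_iff] at hu hv
      obtain ⟨a, ha, hu⟩ := hu
      obtain ⟨c', hc', hv⟩ := hv
      rw [show a = x from ha] at hu
      rw [show c' = x from hc'] at hv
      obtain ⟨g, rfl⟩ := isConj_iff.1 hu
      obtain ⟨k, rfl⟩ := isConj_iff.1 hv
      have h := Subgroup.mem_centralizer_singleton_iff.1 (hconj (k⁻¹ * g))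
      calc g * x * g⁻¹ * (k * x * k⁻¹) = g * (x * ((k⁻¹ * g)⁻¹ * x * (k⁻¹ * g))) * g⁻¹ := by group
        _ = g * ((k⁻¹ * g)⁻¹ * x * (k⁻¹ * g) * x) * g⁻¹ := by rw [← h]
        _ = _ := by group
    have hn : (Subgroup.normalClosure ({x} : Set G)).Normal := Subgroup.normalClosure_normal
    have habn : IsMulCommutative (Subgroup.normalClosure ({x} : Set G)) :=
      Subgroup.isMulCommutative_closure hcomm
    exact CfsgLib.Cores.le_fittingSubgroup_of_isMulCommutative hn habn
      (Subgroup.subset_normalClosure (Set.mem_singleton x))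
  push Not at hx
  have hidx : F.index ≤ b ^ 2 * (b ^ 2 + 1) := by
    have := Fintype.ofFinite (ConjClasses G)
    set k := Nat.card (ConjClasses G) with hk
    have h1 : Nat.card G ≤ k * b ^ 2 := by
      rw [hk, ← card_irrCharacter, ← sum_charDegree_sq, Nat.card_eq_fintype_card]
      have := Finset.sum_le_card_nsmul (Finset.univ : Finset (IrrCharacter G))
        (fun χ => charDegree (χ : G → ℂ) ^ 2) (b ^ 2) fun χ _ => Nat.pow_le_pow_left (hb χ) 2
      simpa using this
    set TF := Finset.univ.image fun x : F => ConjClasses.mk (x : G) with hTF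
    have h2 : TF.card ≤ Nat.card F := by
      rw [Nat.card_eq_fintype_card]; exact Finset.card_image_le.trans (le_of_eq Finset.card_univ)
    have h3 : TFᶜ.card * (b ^ 2 + 1) ≤ Nat.card G := by
      calc TFᶜ.card * (b ^ 2 + 1) = ∑ _C ∈ TFᶜ, (b ^ 2 + 1) := by rw [Finset.sum_const, smul_eq_mul]
        _ ≤ ∑ C ∈ TFᶜ, Nat.card C.carrier := Finset.sum_le_sum fun C hC => by
            obtain ⟨g, rfl⟩ := ConjClasses.mk_surjective C
            rw [card_carrier_eq_index]
            refine hx g fun hg => ?_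
            exact Finset.mem_compl.1 hC (Finset.mem_image.2 ⟨⟨g, hg⟩, Finset.mem_univ _, rfl⟩)
        _ ≤ ∑ C : ConjClasses G, Nat.card C.carrier := Finset.sum_le_univ_sum_of_nonneg fun _ => Nat.zero_le _
        _ = Nat.card G := by
          rw [Nat.card_eq_fintype_card, ← sum_conjClasses_card_eq_card]
          exact Finset.sum_congr rfl fun C _ => by rw [Nat.card_eq_fintype_card, Set.toFinset_card]
    have h4 : k = TF.card + TFᶜ.card := by
      rw [hk, Nat.card_eq_fintype_card, Finset.card_add_card_compl]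
    refine Nat.le_of_mul_le_mul_left ?_ (Nat.card_pos (α := F))
    rw [Subgroup.card_mul_index]
    have h5 := Nat.mul_le_mul_right (b ^ 2 + 1) h1
    have h6 := Nat.mul_le_mul_right (b ^ 2) h3
    have h7 := Nat.mul_le_mul_right (b ^ 2 * (b ^ 2 + 1)) h2
    rw [h4] at h5
    nlinarith
  exact (ih (b / 2) (by omega) F (degrees_half hb F hF)).of_subgroup hidx (factorial_half' hb5 _ le_rfl)

theorem main : ∀ (b : ℕ) (G : Type u) [Group G] [Finite G], DegreesLE G b →
    HasAbelianOfIndexLE G ((Nat.factorial b) ^ 2) := by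
  intro b
  induction b using Nat.strong_induction_on with
  | _ b ih =>
  intro G _ _ hb
  classical
  have := Fintype.ofFinite G
  by_cases hcomm : commutator G = ⊥
  · refine ⟨⊤, fun x _ y _ => ?_, by
      rw [Subgroup.index_top]; exact Nat.one_le_pow _ _ (Nat.factorial_pos b)⟩
    rw [← commutatorElement_eq_one_iff_mul_comm]
    have h := Subgroup.commutator_mem_commutator (Subgroup.mem_top x) (Subgroup.mem_top y)
    rw [← commutator_def, hcomm, Subgroup.mem_bot] at h
    exact h
  obtain ⟨β, hβ⟩ : ∃ β : IrrCharacter G, charDegree (β : G → ℂ) ≠ 1 := by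
    by_contra! h
    exact hcomm (commutator_eq_bot_iff.2 fun β => (charDegree_eq_one_iff β).1 (h β))
  have hb2 : 2 ≤ b := by have := charDegree_pos β; have := hb β; omega
  rcases hb2.eq_or_lt with rfl | hb3
  · -- degrees `1` and `2`
    haveI : Fact (Nat.Prime 2) := ⟨Nat.prime_two⟩
    have hd : CfsgLib.TwoDegrees.Degrees G 2 := fun χ => by
      have := charDegree_pos χ; have := hb χ; omega
    have hm : ∃ χ : IrrCharacter G, charDegree (χ : G → ℂ) = 2 := ⟨β, (hd β).resolve_left hβ⟩
    have hnab : ∃ a c : G, a * c ≠ c * a := by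
      by_contra! h
      apply hcomm
      rw [commutator_def, Subgroup.commutator_eq_bot_iff_le_centralizer]
      exact fun a _ => Subgroup.mem_centralizer_iff.2 fun c _ => (h a c).symm
    have hder := CfsgLib.TwoDegrees.derived_abelian hd hm (by norm_num)
    obtain ⟨A, ⟨hAG, hab⟩, hmax⟩ := (Set.toFinite {A : Subgroup G | commutator G ≤ A ∧
      ∀ a ∈ A, ∀ c ∈ A, a * c = c * a}).exists_maximal ⟨commutator G, le_rfl, hder⟩
    haveI : A.Normal := ⟨fun a ha g => by
      rw [show g * a * g⁻¹ = ⁅g, a⁆ * a by simp [commutatorElement_def]]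
      exact mul_mem (hAG (Subgroup.commutator_mem_commutator (Subgroup.mem_top g) (Subgroup.mem_top a))) ha⟩
    have hself : ∀ x : G, (∀ a ∈ A, x * a = a * x) → x ∈ A := by
      intro x hx
      set U : Set G := insert x A
      have hU : ∀ u ∈ U, ∀ v ∈ U, u * v = v * u := by
        rintro u (rfl | hu) v (rfl | hv)
        · rfl
        · exact hx v hv
        · exact (hx u hu).symm
        · exact hab u hu v hv
      haveI := Subgroup.isMulCommutative_closure hU
      have hle : A ≤ Subgroup.closure U := fun a ha => Subgroup.subset_closure (Set.mem_insert_of_mem _ ha)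
      exact hmax ⟨hAG.trans hle, fun a ha c hc => congrArg Subtype.val
        (IsMulCommutative.is_comm.comm (⟨a, ha⟩ : Subgroup.closure U) ⟨c, hc⟩)⟩ hle
          (Subgroup.subset_closure (Set.mem_insert x _))
    have O : CfsgLib.TwoDegrees.Orbits A 2 :=
      { ab := hab
        self_cent := hself
        comm_mem := fun x y => hAG (Subgroup.commutator_mem_commutator (Subgroup.mem_top x) (Subgroup.mem_top y))
        index_eq := fun μ hμ => (CfsgLib.TwoDegrees.orbit_facts hd A hab μ hμ).1
        ext_one := fun μ hμ x hx y hy => (CfsgLib.TwoDegrees.orbit_facts hd A hab μ hμ).2 x hx y hy _ }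
    rcases CfsgLib.TwoDegrees.index_cases O hnab with ⟨B, -, hB, hBi⟩ | hZ
    · exact ⟨B, hB, by rw [hBi]; norm_num⟩
    · obtain ⟨g, hg⟩ : ∃ g, g ∉ Subgroup.center G := by
        by_contra! h
        rw [show Subgroup.center G = ⊤ from eq_top_iff.2 fun g _ => h g, Subgroup.index_top] at hZ
        norm_num at hZ
      set U : Set G := insert g (Subgroup.center G : Set G)
      have hU : ∀ u ∈ U, ∀ v ∈ U, u * v = v * u := by
        rintro u (rfl | hu) v (rfl | hv)
        · rfl
        · exact Subgroup.mem_center_iff.1 hv u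
        · exact (Subgroup.mem_center_iff.1 hu v).symm
        · exact (Subgroup.mem_center_iff.1 hu v).symm
      haveI := Subgroup.isMulCommutative_closure hU
      refine ⟨Subgroup.closure U, fun a ha c hc => congrArg Subtype.val
        (IsMulCommutative.is_comm.comm (⟨a, ha⟩ : Subgroup.closure U) ⟨c, hc⟩), ?_⟩
      have hle : Subgroup.center G ≤ Subgroup.closure U :=
        fun a ha => Subgroup.subset_closure (Set.mem_insert_of_mem _ ha)
      have h1 := Subgroup.relIndex_mul_index hle
      rw [hZ] at h1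
      have h2 : (Subgroup.center G).relIndex (Subgroup.closure U) ≠ 1 := fun h =>
        hg (Subgroup.relIndex_eq_one.1 h (Subgroup.subset_closure (Set.mem_insert g _)))
      have h3 : (Subgroup.center G).relIndex (Subgroup.closure U) ≠ 0 := Subgroup.index_ne_zero_of_finite
      have h4 := Nat.mul_le_mul_right (Subgroup.closure U).index
        (show 2 ≤ (Subgroup.center G).relIndex (Subgroup.closure U) by omega)
      rw [h1] at h4
      norm_num at h4 ⊢
      omega
  by_cases hnp : commutator G ≤ ⁅commutator G, commutator G⁆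
  swap
  · exact solvable_step hb hb3 ih hnp
  have hperf : ∀ D : Subgroup G, Group.IsSolvable D → ¬ commutator G ≤ D := by
    intro D hD hle
    have hs : Group.IsSolvable (commutator G) := CfsgLib.Cores.isSolvable_of_le hle hD
    apply hcomm
    by_contra hne
    haveI : Nontrivial (commutator G) := (Subgroup.nontrivial_iff_ne_bot _).2 hne
    haveI := hs
    have h1 := Group.IsSolvable.commutator_lt_top_of_nontrivial (commutator G)
    have h2 : (commutator ↥(commutator G)).map (commutator G).subtype = ⁅commutator G, commutator G⁆ :=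
      Subgroup.map_subtype_commutator _
    have h3 : commutator ↥(commutator G) = ⊤ := by
      refine eq_top_iff.2 fun w _ => ?_
      obtain ⟨v, hv, e⟩ := (h2 ▸ hnp w.2 : (w : G) ∈ (commutator ↥(commutator G)).map (commutator G).subtype)
      rwa [← Subtype.ext e]
    exact h1.ne h3
  have hb5 : 5 ≤ b := by
    by_contra hlt
    have hs : Group.IsSolvable G := isSolvable_of_degrees_le_four _ G rfl fun χ => (hb χ).trans (by omega)
    exact hperf ⊤ inferInstance le_top
  exact perfect_step hb hb5 ih (hperf _ CfsgLib.Cores.fittingSubgroup_isSolvable)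

end CfsgLib.IsaacsPassman
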